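import Mathlib
import Cfsg.Agent.Lib.ModRep.Weights
import Cfsg.Agent.Lib.SplitBN.CentUJ
import Cfsg.Agent.Lib.Block.ModRank
import Cfsg.Agent.Lib.Block.Apps
import Cfsg.Agent.Lib.StChar.Chev
import Cfsg.Agent.S0953

/-!
Blocks of finite groups with root elements in the defining characteristic (Dagger, Humphreys).
-/

set_option autoImplicit false
set_option linter.unusedSectionVars false
attribute [local irreducible] H33.instFieldF

namespace H64.MR

open Cfsg MonoidAlgebra H33 H38

section general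

variable {G : Type*} [Group G] [Fintype G]

theorem sum_conj_single {R : Type*} [CommRing R] (g : G) :
    ∑ h : G, single h (1 : R) * single g 1 * single h⁻¹ 1 =
      (Nat.card (C1 g) : R) • classSum R g := by
  classical
  apply alg_ext
  intro x
  rw [coeff_sum_apply, coeff_smul_apply', coeff_classSum]
  simp only [single_mul_single, mul_one, coeff_single']
  rw [Finset.sum_boole]
  split_ifs with h
  · rw [← H6.card_conj_eq h, Nat.card_eq_fintype_card, Fintype.card_subtype, mul_one]
  · rw [mul_zero, Finset.filter_eq_empty_iff.2 fun y _ e => h (isConj_iff.2 ⟨y, e⟩)]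
    simp

theorem exists_trace {k : Type*} [Field k] {z : MonoidAlgebra k G} (hz : IsCent z)
    (h : ∀ g, z.coeff g ≠ 0 → (Nat.card (C1 g) : k) ≠ 0) :
    ∃ a : MonoidAlgebra k G, z = ∑ g, single g 1 * a * single g⁻¹ 1 := by
  haveI := Fintype.ofFinite (ConjClasses G)
  refine ⟨∑ c : ConjClasses G, (z.coeff (Quotient.out c) * (Nat.card (C1 (Quotient.out c)) : k)⁻¹) •
    single (Quotient.out c) 1, ?_⟩
  simp only [Finset.mul_sum, Finset.sum_mul, mul_smul_comm, smul_mul_assoc]
  rw [Finset.sum_comm]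
  conv_lhs => rw [hz.eq_sum_classSum]
  refine Finset.sum_congr rfl fun c _ => ?_
  rw [← Finset.smul_sum, sum_conj_single, smul_smul]
  by_cases h0 : z.coeff (Quotient.out c) = 0
  · simp [h0]
  · rw [mul_assoc, inv_mul_cancel₀ (h _ h0), mul_one]

variable {p : ℕ} [hp : Fact p.Prime] {M : Ideal AlgInt} [hmax : M.IsMaximal]

theorem exists_trace_eB (hM : IsPModular p M) {B : Set (IrrCharacter G)} (hB : IsPBlock M B)
    (h0 : blockDefect p B = 0) :
    ∃ a : MonoidAlgebra (F M) G, eB M B = ∑ g, single g 1 * a * single g⁻¹ 1 := by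
  haveI := charP hM
  refine exists_trace (isCent_eB B) fun g hg => ?_
  have := le_blockDefect_of_coeff hM hB (h := g) hg
  rw [h0, Nat.le_zero, Nat.factorization_eq_zero_iff] at this
  rw [Ne, CharP.cast_eq_zero_iff (F M) p]
  rcases this with h | h | h
  · exact absurd hp.out h
  · exact h
  · exact absurd h Nat.card_pos.ne'

theorem defect_radical (hM : IsPModular p M) {B : Set (IrrCharacter G)} (hB : IsPBlock M B)
    {D : Subgroup G} (hD : IsDefectGroup p M B D) (Y : Subgroup G) (hY : IsPGroup p Y)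
    (h1 : Y ≤ Subgroup.normalizer (D : Set G))
    (h2 : ∀ m ∈ Subgroup.normalizer (D : Set G), ∀ y ∈ Y, m * y * m⁻¹ ∈ Y) : Y ≤ D := by
  obtain ⟨b, hb, hbD, -⟩ := first_main_down hM hB hD
  haveI : (Y.subgroupOf (H86.Nor D)).Normal := ⟨fun y hy m => h2 m m.2 y hy⟩
  have := normal_le_defect hM hb hbD (P := Y.subgroupOf (H86.Nor D)) hY.comap_subtype
  intro y hy
  exact this (x := ⟨y, h1 hy⟩) hy

end general

variable {ι l : Type} [Fintype l] [DecidableEq l] [Finite ι] {R : RS ι l} {K : Type*} [Field K]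
  [Fintype K] {G : Type*} [Group G] [Fintype G] {E : Elts R K G}
  (hF : E.Faith) (h3 : E.R3) (htop : E.Gp = ⊤)
  {p : ℕ} [hp : Fact p.Prime] [CharP K p] {M : Ideal AlgInt} (hM : IsPModular p M)
include hF h3 htop hM

theorem block_eq_of_defect_zero {B B' : Set (IrrCharacter G)} (hB : IsPBlock M B)
    (hB' : IsPBlock M B') (h0 : blockDefect p B = 0) (h0' : blockDefect p B' = 0) : B = B' := by
  classical
  haveI := isMaximal_of hM
  haveI := charP hM
  by_contra hne
  obtain ⟨W⟩ := exists_wedd (F M) G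
  obtain ⟨j, hj⟩ := W.exists_alg_eq_one (e := eB M B) (eB_idem hB) (eB_ne_zero hB) (isCent_eB B).comm
  obtain ⟨j', hj'⟩ := W.exists_alg_eq_one (e := eB M B') (eB_idem hB') (eB_ne_zero hB')
    (isCent_eB B').comm
  obtain ⟨a, ha⟩ := exists_trace_eB hM hB h0
  obtain ⟨a', ha'⟩ := exists_trace_eB hM hB' h0'
  obtain rfl := W.eq_of_trace p hF h3 htop (ha ▸ hj) (ha' ▸ hj')
  have := congrArg (W.alg j) (eB_mul_eB_of_ne hB hB' hne)
  rw [map_mul, hj, hj', map_zero, one_mul] at this
  exact one_ne_zero this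

omit hM in
theorem stein_factorization :
    (charDegree (H62.St.stein (hF.bnPair htop))).factorization p = (Nat.card G).factorization p := by
  obtain ⟨n, hn, h⟩ := H62.St.exists_opp hF
  have hS := H62.St.split_elts hF htop h3 p
  have h1 : charDegree (H62.St.stein (hF.bnPair htop)) = Nat.card E.U := by
    simp [charDegree, hS.stein_one hn h]
  rw [h1, factorization_card_eq p E.U,
    Nat.factorization_eq_zero_of_not_dvd (SBN.not_dvd_index_U p hF htop h3), add_zero]

omit hM in
/-- The Steinberg character is the only character of defect zero. -/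
theorem eq_stein {χ : G → ℂ} (hχ : IsIrrCharacter G χ)
    (h : (charDegree χ).factorization p = (Nat.card G).factorization p) :
    χ = H62.St.stein (hF.bnPair htop) := by
  obtain ⟨M, hM⟩ := exists_isPModular p
  haveI := isMaximal_of hM
  let ψ : IrrCharacter G := ⟨_, H62.St.isIrr_stein (P := hF.bnPair htop)⟩
  let χ' : IrrCharacter G := ⟨χ, hχ⟩
  have h1 := block_eq_of_defect_zero hF h3 htop hM (isPBlock_blockOf χ') (isPBlock_blockOf ψ)
    ((blockDefect_eq_zero_iff hM (isPBlock_blockOf χ') (mem_blockOf_self χ')).2 h)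
    ((blockDefect_eq_zero_iff hM (isPBlock_blockOf ψ) (mem_blockOf_self ψ)).2
      (stein_factorization hF h3 htop))
  rw [blockOf_eq_singleton hM (χ := χ') h,
    blockOf_eq_singleton hM (χ := ψ) (stein_factorization hF h3 htop)] at h1
  exact congrArg Subtype.val (Set.singleton_injective h1)

theorem card_defect_zero :
    Nat.card {B : Set (IrrCharacter G) // IsPBlock M B ∧ blockDefect p B = 0} = 1 := by
  haveI := isMaximal_of hM
  let ψ : IrrCharacter G := ⟨_, H62.St.isIrr_stein (P := hF.bnPair htop)⟩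
  rw [Nat.card_eq_one_iff_unique]
  exact ⟨⟨fun B B' => Subtype.ext (block_eq_of_defect_zero hF h3 htop hM B.2.1 B'.2.1 B.2.2 B'.2.2)⟩,
    ⟨⟨_, isPBlock_blockOf ψ, (blockDefect_eq_zero_iff hM (isPBlock_blockOf ψ)
      (mem_blockOf_self ψ)).2 (stein_factorization hF h3 htop)⟩⟩⟩

theorem defect_zero_or_full (hc : R.Connected) {B : Set (IrrCharacter G)} (hB : IsPBlock M B) :
    blockDefect p B = 0 ∨ blockDefect p B = (Nat.card G).factorization p := by
  haveI := isMaximal_of hM
  obtain ⟨D, hD⟩ := exists_defectGroup p hB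
  obtain ⟨g, J, hJ⟩ := SBN.exists_conj_eq_UJ hF p htop h3 (defect_isPGroup hD)
    (defect_radical hM hB hD)
  have hD' : IsDefectGroup p M B (E.UJ J) := hJ ▸ defect_cs hD g
  by_cases h : J = Set.univ
  · left
    rw [blockDefect_eq_zero_iff_bot hM hB hD', h, SBN.UJ_univ]
  · right
    obtain ⟨s, hs, hsyl⟩ := isDefectGroup_iff.1 hD'
    have h1 := SBN.mem_center_of_comm_UJ hF p htop h3 hc h (g := s)
      (fun u hu => (mem_C1.1 (hsyl.le hu)).symm) (defectClass_not_dvd hM hB hs)
    have h2 : C1 s = ⊤ := eq_top_iff.2 fun x _ => mem_C1.2 (Subgroup.mem_center_iff.1 h1 x)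
    rw [blockDefect_eq_C1 hM hB hs, h2, Subgroup.card_top]

theorem card_full_defect [Nonempty l] (hc : R.Connected) :
    Nat.card {B : Set (IrrCharacter G) // IsPBlock M B ∧
      blockDefect p B = (Nat.card G).factorization p} = Nat.card (Subgroup.center G) := by
  haveI := isMaximal_of hM
  set P := SBN.sylowU p hF htop h3
  have hP : (P : Subgroup G) = E.UJ ∅ := by
    rw [SBN.coe_sylowU, Elts.UJ, PreElts.U]
    congr 1
    ext r
    simp only [Set.mem_setOf_eq, iff_self_and]
    intro _ h
    exact R.rt_ne_zero r (funext fun j => h j (Set.notMem_empty j))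
  rw [Nat.card_congr (Equiv.subtypeEquivRight (q := fun B => IsPBlock M B ∧
    IsDefectGroup p M B (P : Subgroup G)) fun B => and_congr_right fun hB =>
      (sylow_isDefectGroup_iff hM hB P).symm), Cfsg.Agent.S0953.result p M hM P]
  symm
  have hZ : ∀ z : Subgroup.center G, (z : G) ∈ Subgroup.normalizer ((P : Subgroup G) : Set G) :=
    fun z => Subgroup.center_le_normalizer _ z.2
  have hconj : ∀ (z : Subgroup.center G) (n : Subgroup.normalizer ((P : Subgroup G) : Set G)),
      ConjClasses.mk n = ConjClasses.mk ⟨z, hZ z⟩ → (n : G) = z := by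
    intro z n h
    obtain ⟨c, hc⟩ := isConj_iff.1 (ConjClasses.mk_eq_mk_iff_isConj.1 h.symm)
    have := congrArg Subtype.val hc
    simp only [Subgroup.coe_mul, Subgroup.coe_inv] at this
    rw [← this, Subgroup.mem_center_iff.1 z.2 c, mul_inv_cancel_right]
  refine Nat.card_congr (Equiv.ofBijective (fun z => ⟨ConjClasses.mk ⟨z, hZ z⟩, fun n hn => ?_⟩)
    ⟨fun z z' h => Subtype.ext (hconj z' _ (congrArg Subtype.val h)), ?_⟩)
  · rw [← Subgroup.orderOf_coe, hconj z n hn]
    exact ⟨fun h => SBN.not_dvd_card_H p h3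
      (h.trans (Subgroup.orderOf_dvd_natCard _ (hF.center_le_H htop z.2))),
      Subgroup.center_le_centralizer _ z.2⟩
  · rintro ⟨C, hC⟩
    obtain ⟨n, rfl⟩ := ConjClasses.mk_surjective C
    obtain ⟨h1, h2⟩ := hC n rfl
    rw [← Subgroup.orderOf_coe] at h1
    have := SBN.mem_center_of_comm_UJ hF p htop h3 hc (J := ∅) Set.empty_ne_univ (g := n)
      (fun u hu => (h2 u (hP ▸ hu)).symm) h1
    exact ⟨⟨n, this⟩, rfl⟩

/-- The number of blocks in the defining characteristic. -/
theorem card_blocks [Nonempty l] (hc : R.Connected) :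
    Nat.card {B : Set (IrrCharacter G) // IsPBlock M B} = Nat.card (Subgroup.center G) + 1 := by
  classical
  rw [← card_full_defect hF h3 htop hM hc, ← card_defect_zero hF h3 htop hM, ← Nat.card_sum]
  have hne : (Nat.card G).factorization p ≠ 0 := by
    obtain ⟨i⟩ := ‹Nonempty l›
    have h1 : p ∣ Nat.card G := by
      refine (SBN.char_dvd_card (K := K) p).trans ?_
      rw [← hF.card_X (R.sim i)]
      exact Subgroup.card_subgroup_dvd_card _
    exact (hp.out.factorization_pos_of_dvd Nat.card_pos.ne' h1).ne'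
  symm
  refine Nat.card_congr (Equiv.ofBijective (Sum.elim (fun B => ⟨B.1, B.2.1⟩) fun B => ⟨B.1, B.2.1⟩)
    ⟨?_, fun B => ?_⟩)
  · rintro (a | a) (b | b) h <;> simp only [Sum.elim_inl, Sum.elim_inr, Subtype.mk.injEq] at h
    · rw [Subtype.ext h]
    · exact absurd (a.2.2.symm.trans (h ▸ b.2.2)) hne
    · exact absurd (b.2.2.symm.trans (h ▸ a.2.2)) hne
    · rw [Subtype.ext h]
  · rcases defect_zero_or_full hF h3 htop hM hc B.2 with h | h
    · exact ⟨Sum.inr ⟨B.1, B.2, h⟩, rfl⟩
    · exact ⟨Sum.inl ⟨B.1, B.2, h⟩, rfl⟩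

end H64.MR
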